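import Cfsg.Agent.Lib.Basic.Hall2
import Cfsg.Agent.Lib.Char.Burnside

/-!
# Hall's converse and related solvability criteria (these use Burnside's two-prime theorem).
-/

set_option autoImplicit false

namespace Cfsg.Agent.Lib.Basic

open Subgroup Cfsg

open scoped Pointwise commutatorElement IsMulCommutative

variable {G : Type*} [Group G]

/-- A positive integer with at most two prime divisors has the form `p ^ a * q ^ b`. -/
theorem exists_pow_mul_pow_of_no_three {n : ℕ} (hn : n ≠ 0)
    (h : ¬ ∃ p q r : ℕ, p.Prime ∧ q.Prime ∧ r.Prime ∧ p ∣ n ∧ q ∣ n ∧ r ∣ n ∧ p ≠ q ∧ p ≠ r ∧ q ≠ r) :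
    ∃ p q a b : ℕ, p.Prime ∧ q.Prime ∧ n = p ^ a * q ^ b := by
  have hle : n.primeFactors.card ≤ 2 := by
    by_contra hc
    push Not at hc
    obtain ⟨p, q, r, hp, hq, hr, h1, h2, h3⟩ := Finset.two_lt_card_iff.mp hc
    exact h ⟨p, q, r, Nat.prime_of_mem_primeFactors hp, Nat.prime_of_mem_primeFactors hq,
      Nat.prime_of_mem_primeFactors hr, Nat.dvd_of_mem_primeFactors hp,
      Nat.dvd_of_mem_primeFactors hq, Nat.dvd_of_mem_primeFactors hr, h1, h2, h3⟩
  have hprod : n = ∏ x ∈ n.primeFactors, x ^ n.factorization x := by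
    conv_lhs => rw [← Nat.prod_factorization_pow_eq_self hn]
    rw [Finsupp.prod, Nat.support_factorization]
  have hcases : n.primeFactors.card = 0 ∨ n.primeFactors.card = 1 ∨ n.primeFactors.card = 2 := by
    omega
  rcases hcases with h0 | h1 | h2
  · rw [Finset.card_eq_zero] at h0
    rw [h0, Finset.prod_empty] at hprod
    exact ⟨2, 2, 0, 0, Nat.prime_two, Nat.prime_two, by simpa using hprod⟩
  · obtain ⟨p, hp⟩ := Finset.card_eq_one.mp h1
    rw [hp, Finset.prod_singleton] at hprod
    have hpp : p.Prime := Nat.prime_of_mem_primeFactors (hp ▸ Finset.mem_singleton_self p)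
    exact ⟨p, p, _, 0, hpp, hpp, by simpa using hprod⟩
  · obtain ⟨p, q, hpq, hs⟩ := Finset.card_eq_two.mp h2
    rw [hs, Finset.prod_pair hpq] at hprod
    have hpp : p.Prime := Nat.prime_of_mem_primeFactors (hs ▸ Finset.mem_insert_self p _)
    have hqq : q.Prime := Nat.prime_of_mem_primeFactors
      (hs ▸ Finset.mem_insert_of_mem (Finset.mem_singleton_self q))
    exact ⟨p, q, _, _, hpp, hqq, hprod⟩

/-- **S0006**: Hall's converse. -/
theorem isSolvable_of_hall_complements.{u} : ∀ (n : ℕ) {G : Type u} [Group G] [Finite G],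
    Nat.card G = n →
    (∀ p : ℕ, p.Prime → ∃ H : Subgroup G, H.index = p ^ (Nat.card G).factorization p) →
    Group.IsSolvable G := by
  intro n
  induction n using Nat.strong_induction_on with
  | _ n ih =>
    intro G _ _ hn h
    have hG0 : Nat.card G ≠ 0 := Nat.card_pos.ne'
    by_cases hthree : ∃ p q r : ℕ, p.Prime ∧ q.Prime ∧ r.Prime ∧ p ∣ Nat.card G ∧ q ∣ Nat.card G ∧
        r ∣ Nat.card G ∧ p ≠ q ∧ p ≠ r ∧ q ≠ r
    · have hsub : ∀ (p : ℕ), p.Prime → p ∣ Nat.card G → ∀ H : Subgroup G,
          H.index = p ^ (Nat.card G).factorization p → Group.IsSolvable H := by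
        intro p hp hpd H hH
        have hv : (Nat.card G).factorization p ≠ 0 := by
          have := hp.factorization_pos_of_dvd hG0 hpd
          omega
        have hcard : Nat.card H * p ^ (Nat.card G).factorization p = Nat.card G := by
          rw [← hH]
          exact Subgroup.card_mul_index H
        have hHpos : Nat.card H ≠ 0 := Nat.card_pos.ne'
        have hlt : Nat.card H < n := by
          have h1 : 1 < p ^ (Nat.card G).factorization p := Nat.one_lt_pow hv hp.one_lt
          rw [← hn, ← hcard]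
          have : 0 < Nat.card H := Nat.card_pos
          nlinarith
        have hfac : (Nat.card G).factorization = (Nat.card H).factorization +
            (p ^ (Nat.card G).factorization p).factorization := by
          conv_lhs => rw [← hcard]
          rw [Nat.factorization_mul hHpos (pow_ne_zero _ hp.ne_zero)]
        refine ih _ hlt rfl ?_
        intro s hs
        by_cases hsp : s = p
        · subst hsp
          refine ⟨⊤, ?_⟩
          have h2 := congrArg (fun f => f s) hfac
          simp only [Finsupp.add_apply, Nat.Prime.factorization_pow hs, Finsupp.single_eq_same] at h2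
          have h3 : (Nat.card H).factorization s = 0 := by omega
          rw [h3]
          simp
        · obtain ⟨K, hK⟩ := h s hs
          refine ⟨K.subgroupOf H, ?_⟩
          have h2 := congrArg (fun f => f s) hfac
          simp only [Finsupp.add_apply, Nat.Prime.factorization_pow hp, Finsupp.single_apply] at h2
          rw [if_neg (Ne.symm hsp), add_zero] at h2
          have hcop : K.index.Coprime H.index := by
            rw [hK, hH]
            exact Nat.Coprime.pow _ _ ((Nat.coprime_primes hs hp).mpr hsp)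
          have h3 : K.relIndex H = K.index :=
            relIndex_eq_index_of_mul_eq (exists_mul_of_index_coprime H K hcop.symm)
          change K.relIndex H = _
          rw [h3, hK, h2]
      obtain ⟨p, q, r, hp, hq, hr, hpd, hqd, hrd, hpq, hpr, hqr⟩ := hthree
      obtain ⟨Hp, hHp⟩ := h p hp
      obtain ⟨Hq, hHq⟩ := h q hq
      obtain ⟨Hr, hHr⟩ := h r hr
      refine isSolvable_of_three_factorizations _ G rfl Hp Hq Hr (hsub p hp hpd Hp hHp)
        (hsub q hq hqd Hq hHq) (hsub r hr hrd Hr hHr)
        (exists_mul_of_index_coprime Hp Hq ?_) (exists_mul_of_index_coprime Hp Hr ?_) ?_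
      · rw [hHp, hHq]
        exact Nat.Coprime.pow _ _ ((Nat.coprime_primes hp hq).mpr hpq)
      · rw [hHp, hHr]
        exact Nat.Coprime.pow _ _ ((Nat.coprime_primes hp hr).mpr hpr)
      · rw [hHq, hHr]
        exact Nat.Coprime.pow _ _ ((Nat.coprime_primes hq hr).mpr hqr)
    · obtain ⟨p, q, a, b, hp, hq, hc⟩ := exists_pow_mul_pow_of_no_three hG0 hthree
      exact Cfsg.Agent.Lib.Char.isSolvable_of_card_eq_aux hp hq _ G rfl ⟨a, b, hc⟩

/-- **S0535**. -/
theorem isSolvable_of_prime_power_index_subgroups.{u} : ∀ (n : ℕ) {G : Type u} [Group G] [Finite G],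
    Nat.card G = n →
    (∀ H : Subgroup G, H ≠ ⊥ → ∀ p : ℕ, p.Prime → p ∣ Nat.card H →
      ∃ K : Subgroup H, K ≠ ⊤ ∧ ∃ k : ℕ, K.index = p ^ k) → Group.IsSolvable G := by
  intro n
  induction n using Nat.strong_induction_on with
  | _ n ih =>
    intro G _ _ hn h
    have hG0 : Nat.card G ≠ 0 := Nat.card_pos.ne'
    by_cases hthree : ∃ p q r : ℕ, p.Prime ∧ q.Prime ∧ r.Prime ∧ p ∣ Nat.card G ∧ q ∣ Nat.card G ∧
        r ∣ Nat.card G ∧ p ≠ q ∧ p ≠ r ∧ q ≠ r
    · -- all proper subgroups are solvable
      have hsub : ∀ H : Subgroup G, H ≠ ⊤ → Group.IsSolvable H := by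
        intro H hH
        have hlt : Nat.card H < n := by
          rw [← hn]
          have := card_lt_of_lt (lt_top_iff_ne_top.mpr hH)
          rwa [Subgroup.card_top] at this
        refine ih _ hlt rfl ?_
        intro L hL p hp hpd
        have hL' : L.map H.subtype ≠ ⊥ := by
          rwa [Ne, Subgroup.map_eq_bot_iff_of_injective _ H.subtype_injective]
        let e : L ≃* L.map H.subtype := L.equivMapOfInjective _ H.subtype_injective
        obtain ⟨K, hK, k, hk⟩ := h (L.map H.subtype) hL' p hp (by
          rwa [← Nat.card_congr e.toEquiv])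
        refine ⟨K.comap e.toMonoidHom, ?_, k, ?_⟩
        · intro htop
          apply hK
          rw [eq_top_iff]
          intro x _
          have h1 : e.symm x ∈ K.comap e.toMonoidHom := by rw [htop]; trivial
          have h2 : e.toMonoidHom (e.symm x) ∈ K := h1
          simpa using h2
        · rw [Subgroup.index_comap_of_surjective _ e.surjective, hk]
      have hex : ∀ p : ℕ, p.Prime → p ∣ Nat.card G → ∃ K : Subgroup G, K ≠ ⊤ ∧ ∃ k : ℕ, K.index = p ^ k := by
        intro p hp hpd
        haveI : Nontrivial G := by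
          rw [← Finite.one_lt_card_iff_nontrivial]
          have h1 := Nat.le_of_dvd (Nat.pos_of_ne_zero hG0) hpd
          have := hp.two_le
          omega
        obtain ⟨K, hK, k, hk⟩ := h ⊤ top_ne_bot p hp (by rwa [Subgroup.card_top])
        let e : (⊤ : Subgroup G) ≃* G := Subgroup.topEquiv
        refine ⟨K.map e.toMonoidHom, ?_, k, ?_⟩
        · intro htop
          apply hK
          have h1 : K = (K.map e.toMonoidHom).comap e.toMonoidHom := by
            rw [Subgroup.comap_map_eq_self_of_injective e.injective]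
          rw [h1, htop, Subgroup.comap_top]
        · rw [Subgroup.index_map_of_bijective e.bijective, hk]
      obtain ⟨p, q, r, hp, hq, hr, hpd, hqd, hrd, hpq, hpr, hqr⟩ := hthree
      obtain ⟨Hp, hHp, i, hi⟩ := hex p hp hpd
      obtain ⟨Hq, hHq, j, hj⟩ := hex q hq hqd
      obtain ⟨Hr, hHr, k, hk⟩ := hex r hr hrd
      refine isSolvable_of_three_factorizations _ G rfl Hp Hq Hr (hsub Hp hHp)
        (hsub Hq hHq) (hsub Hr hHr)
        (exists_mul_of_index_coprime Hp Hq ?_) (exists_mul_of_index_coprime Hp Hr ?_) ?_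
      · rw [hi, hj]
        exact Nat.Coprime.pow _ _ ((Nat.coprime_primes hp hq).mpr hpq)
      · rw [hi, hk]
        exact Nat.Coprime.pow _ _ ((Nat.coprime_primes hp hr).mpr hpr)
      · rw [hj, hk]
        exact Nat.Coprime.pow _ _ ((Nat.coprime_primes hq hr).mpr hqr)
    · obtain ⟨p, q, a, b, hp, hq, hc⟩ := exists_pow_mul_pow_of_no_three hG0 hthree
      exact Cfsg.Agent.Lib.Char.isSolvable_of_card_eq_aux hp hq _ G rfl ⟨a, b, hc⟩

/-- **S0021**: a finite group with a Sylow system is solvable. -/
theorem isSolvable_of_sylow_system [Finite G] (S : (p : Nat.Primes) → Sylow (p : ℕ) G)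
    (hS : ∀ p q : Nat.Primes, (S p : Set G) * (S q : Set G) = (S q : Set G) * (S p : Set G)) :
    Group.IsSolvable G := by
  classical
  have hG0 : Nat.card G ≠ 0 := Nat.card_pos.ne'
  haveI hF : ∀ p : Nat.Primes, Fact (p : ℕ).Prime := fun p => ⟨p.2⟩
  set P : ℕ → Subgroup G := fun q => if hq : q.Prime then (S ⟨q, hq⟩ : Subgroup G) else ⊥ with hPd
  have hP1 : ∀ q (hq : q.Prime), P q = (S ⟨q, hq⟩ : Subgroup G) := fun q hq => by
    simp only [hPd, dif_pos hq]
  have hP : ∀ q : ℕ, q.Prime → Nat.card (P q) = q ^ (Nat.card G).factorization q := by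
    intro q hq
    rw [hP1 q hq]
    haveI : Fact (((⟨q, hq⟩ : Nat.Primes) : ℕ)).Prime := ⟨hq⟩
    exact (S ⟨q, hq⟩).card_eq_multiplicity
  have hPS : ∀ p q : ℕ, p.Prime → q.Prime → (P p : Set G) * P q = P q * P p := by
    intro p q hp hq
    rw [hP1 p hp, hP1 q hq]
    exact hS ⟨p, hp⟩ ⟨q, hq⟩
  refine isSolvable_of_hall_complements _ rfl (fun p hp => ?_)
  obtain ⟨X, hX, -⟩ := exists_product_of_permuting_sylows P hP hPS ((Nat.card G).primeFactors.erase p)
    (fun q hq => Nat.prime_of_mem_primeFactors (Finset.mem_of_mem_erase hq))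
  refine ⟨X, ?_⟩
  have h1 := Subgroup.card_mul_index X
  have hf1 : p ∉ (Nat.card G).primeFactors → p ^ (Nat.card G).factorization p = 1 := by
    intro hq
    have : (Nat.card G).factorization p = 0 := by
      rw [← Finsupp.notMem_support_iff, Nat.support_factorization]
      exact hq
    simp [this]
  have h2 := prod_erase_mul_of_one (Nat.card G).primeFactors
    (fun x => x ^ (Nat.card G).factorization x) p hf1
  rw [prod_primeFactors_pow hG0] at h2
  rw [hX] at h1
  conv_rhs at h1 => rw [← h2]
  refine Nat.eq_of_mul_eq_mul_left (Nat.pos_of_ne_zero ?_) h1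
  intro h0
  rw [h0, zero_mul] at h2
  exact hG0 h2.symm

end Cfsg.Agent.Lib.Basic
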