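import Cfsg.Agent.Lib.Basic.Hall
import Cfsg.Agent.Lib.Basic.Super2

/-!
# `G × A` has subgroups of every order: S0534.
-/

set_option autoImplicit false

namespace Cfsg.Agent.Lib.Basic

open Subgroup Cfsg

/-- A finite abelian group is supersolvable. -/
theorem isSupersolvable_of_commGroup.{u} : ∀ (n : ℕ) {A : Type u} [CommGroup A] [Finite A],
    Nat.card A = n → IsSupersolvable A := by
  intro n
  induction n using Nat.strong_induction_on with
  | _ n ih =>
  intro A _ _ hn
  by_cases hnt : Nontrivial A
  · obtain ⟨x, hx⟩ := exists_ne (1 : A)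
    have hlt : Nat.card (A ⧸ zpowers x) < n := by
      rw [← hn, ← Subgroup.index_eq_card]
      have h1 := Subgroup.card_mul_index (zpowers x)
      have h2 : 1 < Nat.card (zpowers x) := by
        haveI : Nontrivial (zpowers x) := (Subgroup.nontrivial_iff_ne_bot _).mpr (by
          rw [Ne, Subgroup.zpowers_eq_bot]; exact hx)
        exact Finite.one_lt_card
      have h3 : 0 < (zpowers x).index := Nat.pos_of_ne_zero Subgroup.index_ne_zero_of_finite
      rw [← h1]
      nlinarith
    exact isSupersolvable_of_cyclic_normal (zpowers x) (ih _ hlt rfl)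
  · rw [not_nontrivial_iff_subsingleton] at hnt
    exact isSupersolvable_of_subsingleton

theorem hasSubgroupOfEveryOrder_of_commGroup {A : Type*} [CommGroup A] [Finite A] :
    HasSubgroupOfEveryOrder A :=
  hasSubgroupOfEveryOrder_of_isSupersolvable _ rfl (isSupersolvable_of_commGroup _ rfl)

/-- **S0534**. -/
theorem hasSubgroupOfEveryOrder_prod {G A : Type*} [Group G] [CommGroup A] [Finite G] [Finite A]
    [Group.IsSolvable G] (hA : ∀ p : ℕ, p.Prime → p ∣ Nat.card A → p ∣ Nat.card G)
    (hexp : ∀ p : ℕ, p.Prime → p ∣ Nat.card G →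
      (Nat.card A).factorization p + 1 = (Nat.card G).factorization p) :
    HasSubgroupOfEveryOrder (G × A) := by
  classical
  intro d hd
  rw [Nat.card_prod] at hd
  set n := Nat.card G with hn
  set m := Nat.card A with hm
  have hn0 : n ≠ 0 := Nat.card_pos.ne'
  have hm0 : m ≠ 0 := Nat.card_pos.ne'
  have hd0 : d ≠ 0 := fun h => by
    rw [h, zero_dvd_iff] at hd
    exact (mul_ne_zero hn0 hm0) hd
  -- the set of primes
  let π : ℕ → Prop := fun p => n.factorization p ≤ d.factorization p
  let f₁ : ℕ →₀ ℕ := n.factorization.filter π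
  let f₂ : ℕ →₀ ℕ := n.factorization.filter (fun p => ¬ π p)
  have hprime : ∀ p ∈ n.factorization.support, p.Prime := fun p hp =>
    Nat.prime_of_mem_primeFactors (by simpa using hp)
  have hf₁ : ∀ p ∈ f₁.support, p.Prime := fun p hp => by
    have h : p ∈ (n.factorization.filter π).support := hp
    rw [Finsupp.support_filter, Finset.mem_filter] at h
    exact hprime p h.1
  have hf₂ : ∀ p ∈ f₂.support, p.Prime := fun p hp => by
    have h : p ∈ (n.factorization.filter (fun p => ¬ π p)).support := hp
    rw [Finsupp.support_filter, Finset.mem_filter] at h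
    exact hprime p h.1
  let a : ℕ := f₁.prod (· ^ ·)
  let b : ℕ := f₂.prod (· ^ ·)
  have ha : a.factorization = f₁ := Nat.prod_pow_factorization_eq_self hf₁
  have hb : b.factorization = f₂ := Nat.prod_pow_factorization_eq_self hf₂
  have ha0 : a ≠ 0 := by
    refine Finset.prod_ne_zero_iff.mpr fun p hp => ?_
    exact pow_ne_zero _ (hf₁ p hp).ne_zero
  have hb0 : b ≠ 0 := by
    refine Finset.prod_ne_zero_iff.mpr fun p hp => ?_
    exact pow_ne_zero _ (hf₂ p hp).ne_zero
  have hab : a * b = n := by
    refine Nat.eq_of_factorization_eq (mul_ne_zero ha0 hb0) hn0 fun p => ?_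
    rw [Nat.factorization_mul ha0 hb0, ha, hb, Finsupp.add_apply]
    by_cases hp : π p
    · simp [f₁, f₂, Finsupp.filter_apply, hp]
    · simp [f₁, f₂, Finsupp.filter_apply, hp]
  have hcop : a.Coprime b := by
    refine Nat.coprime_of_dvd fun k hk hka hkb => ?_
    have h1 : a.factorization k ≠ 0 := by
      exact (hk.factorization_pos_of_dvd ha0 hka).ne'
    have h2 : b.factorization k ≠ 0 := by
      exact (hk.factorization_pos_of_dvd hb0 hkb).ne'
    rw [ha] at h1
    rw [hb] at h2
    by_cases hp : π k
    · simp [f₂, Finsupp.filter_apply, hp] at h2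
    · simp [f₁, Finsupp.filter_apply, hp] at h1
  obtain ⟨H, hH⟩ := hall_exists _ a b rfl hab.symm hcop
  have had : a ∣ d := by
    rw [← Nat.factorization_le_iff_dvd ha0 hd0, ha]
    intro p
    by_cases hp : π p
    · have h : f₁ p = n.factorization p := by simp [f₁, Finsupp.filter_apply, hp]
      rw [h]
      exact hp
    · have h : f₁ p = 0 := by simp [f₁, Finsupp.filter_apply, hp]
      rw [h]
      exact Nat.zero_le _
  obtain ⟨d₁, hd₁e⟩ := had
  have hd₁0 : d₁ ≠ 0 := by
    rintro rfl
    rw [mul_zero] at hd₁e
    exact hd0 hd₁e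
  have hd₁ : d₁ ∣ m := by
    rw [← Nat.factorization_le_iff_dvd hd₁0 hm0]
    intro p
    have hdp : d.factorization p = a.factorization p + d₁.factorization p := by
      rw [hd₁e, Nat.factorization_mul ha0 hd₁0, Finsupp.add_apply]
    have hle : d.factorization p ≤ (n * m).factorization p :=
      (Nat.factorization_le_iff_dvd hd0 (mul_ne_zero hn0 hm0)).mpr hd p
    rw [Nat.factorization_mul hn0 hm0, Finsupp.add_apply] at hle
    by_cases hpp : p.Prime
    · by_cases hpn : p ∣ n
      · have h1 := hexp p hpp hpn
        by_cases hp : π p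
        · have h2 : a.factorization p = n.factorization p := by
            rw [ha]
            simp [f₁, Finsupp.filter_apply, hp]
          omega
        · have h2 : a.factorization p = 0 := by
            rw [ha]
            simp [f₁, Finsupp.filter_apply, hp]
          have h3 : ¬ n.factorization p ≤ d.factorization p := hp
          omega
      · have h1 : n.factorization p = 0 := Nat.factorization_eq_zero_of_not_dvd hpn
        have h2 : m.factorization p = 0 :=
          Nat.factorization_eq_zero_of_not_dvd fun h => hpn (hA p hpp h)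
        omega
    · have h1 : d₁.factorization p = 0 := Nat.factorization_eq_zero_of_not_prime _ hpp
      omega
  obtain ⟨B, hB⟩ := hasSubgroupOfEveryOrder_of_commGroup (A := A) d₁ hd₁
  refine ⟨H.prod B, ?_⟩
  rw [Nat.card_congr (Subgroup.prodEquiv H B).toEquiv, Nat.card_prod, hH, hB, hd₁e]

end Cfsg.Agent.Lib.Basic
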