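/-
For odd `p`, a prime `q ≠ p` dividing the order of the automorphism group of a `p`-group of rank at
most two divides `p² - 1`.
-/
import Cfsg.Agent.Lib.Basic.CoprimeAction
import Cfsg.Agent.Lib.Basic.Index2
import Cfsg.Agent.Lib.Coprime.Omega1
import Cfsg.Agent.Lib.Coprime.Comm
import Cfsg.Agent.Lib.Basic.ThompsonNPC

set_option autoImplicit false

namespace Cfsg.Agent.Lib.Basic

open Subgroup Cfsg
open scoped commutatorElement

section

variable {X : Type*} [Group X] [Finite X] {p q : ℕ} [Fact p.Prime] [Fact q.Prime]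

theorem rank2_aut_core (hp : p ≠ 2) (hqp : q ≠ p) (P : Subgroup X) (hPp : IsPGroup p P)
    (hrk : ∀ E : Subgroup X, E ≤ P → (∀ x ∈ E, ∀ y ∈ E, x * y = y * x) → (∀ x ∈ E, x ^ p = 1) →
      Nat.card E ≤ p ^ 2)
    (α : X) (hα : orderOf α = q) (hαP : α ∈ normalizer (P : Set X)) (hne : ∃ x ∈ P, α * x ≠ x * α) :
    q ∣ p ^ 2 - 1 := by
  classical
  have hpp : p.Prime := Fact.out
  have hqq : q.Prime := Fact.out
  obtain ⟨A, hAdef⟩ : ∃ A : Subgroup X, A = zpowers α := ⟨_, rfl⟩
  have hαA : α ∈ A := hAdef ▸ mem_zpowers α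
  have hAcard : Nat.card A = q := by rw [hAdef, Nat.card_zpowers, hα]
  have hAcomm : ∀ a ∈ A, ∀ b ∈ A, a * b = b * a := by
    intro a ha b hb
    rw [hAdef] at ha hb
    obtain ⟨i, rfl⟩ := ha
    obtain ⟨j, rfl⟩ := hb
    exact (Commute.refl α).zpow_zpow i j
  have hAP : A ≤ normalizer (P : Set X) := by rw [hAdef, zpowers_le]; exact hαP
  have hcopA : ∀ D : Subgroup X, IsPGroup p D → (Nat.card A).Coprime (Nat.card D) := by
    intro D hD
    obtain ⟨k, hk⟩ := IsPGroup.iff_card.1 hD
    rw [hAcard, hk]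
    exact ((Nat.coprime_primes hqq hpp).2 hqp).pow_right k
  -- a minimal invariant subgroup with nontrivial action
  let Fam : Set (Subgroup X) := {D | D ≤ P ∧ A ≤ normalizer (D : Set X) ∧ ⁅D, A⁆ ≠ ⊥}
  have hPFam : P ∈ Fam := by
    refine ⟨le_rfl, hAP, ?_⟩
    obtain ⟨x, hx, hxne⟩ := hne
    intro h0
    rw [Subgroup.commutator_eq_bot_iff_le_centralizer] at h0
    exact hxne (mem_centralizer_iff.1 (h0 hx) α hαA)
  obtain ⟨D, ⟨hDP, hAD, hDne⟩, hDmin⟩ := Set.exists_min_image Fam (fun D : Subgroup X => Nat.card D)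
    (Set.toFinite _) ⟨P, hPFam⟩
  have hDp : IsPGroup p D := hPp.to_le hDP
  have hDsolv : Group.IsSolvable D := by
    haveI := hDp.isNilpotent
    infer_instance
  have hmin : ∀ E : Subgroup X, E ≤ D → A ≤ normalizer (E : Set X) → E ≠ D → ⁅E, A⁆ = ⊥ := by
    intro E hED hAE hne
    by_contra hc
    have h1 := hDmin E ⟨hED.trans hDP, hAE, hc⟩
    exact hne (Subgroup.eq_of_le_of_card_ge hED h1)
  have hcopD := hcopA D hDp
  have hDA : ⁅D, A⁆ = D := by
    by_contra hc
    have h1 : ⁅D, A⁆ ≤ D := commutator_le_of_le_normalizer hAD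
    have h2 : A ≤ normalizer ((⁅D, A⁆ : Subgroup X) : Set X) := Subgroup.normalizer_commutator_ge_right D A
    have h3 := hmin _ h1 h2 hc
    rw [coprime_commutator_commutator hAD hcopD (Or.inr hDsolv)] at h3
    exact hDne h3
  have hDbot : D ≠ ⊥ := by
    rintro rfl
    apply hDne
    rw [Subgroup.commutator_bot_left]
  obtain ⟨C, hCdef⟩ : ∃ C : Subgroup X, C = D ⊓ centralizer (A : Set X) := ⟨_, rfl⟩
  have hCD : C ≤ D := hCdef ▸ inf_le_left
  have hCA : ∀ c ∈ C, ∀ a ∈ A, a * c = c * a := by
    intro c hc a ha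
    rw [hCdef] at hc
    exact mem_centralizer_iff.1 hc.2 a ha
  have hCne : C ≠ D := by
    intro h
    apply hDne
    rw [← h, Subgroup.commutator_eq_bot_iff_le_centralizer]
    intro c hc
    exact mem_centralizer_iff.2 (fun a ha => hCA c hc a ha)
  have hfix : ∀ E : Subgroup X, E ≤ D → A ≤ normalizer (E : Set X) → E ≠ D → E ≤ C := by
    intro E hED hAE hne
    have h1 := hmin E hED hAE hne
    rw [Subgroup.commutator_eq_bot_iff_le_centralizer] at h1
    intro e he
    rw [hCdef]
    exact ⟨hED he, h1 he⟩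
  -- the Frattini subgroup
  obtain ⟨F, hFdef⟩ : ∃ F : Subgroup X, F = (frattini D).map D.subtype := ⟨_, rfl⟩
  have hFle : F ≤ D := by rw [hFdef]; exact map_subtype_le _
  have hFA : A ≤ normalizer (F : Set X) := by
    rw [hFdef]
    exact hAD.trans (le_normalizer_map_of_characteristic (frattini D))
  have hFne : F ≠ D := by
    intro h
    have hnt : Nontrivial D := (Subgroup.nontrivial_iff_ne_bot D).2 hDbot
    have htop : frattini D = ⊤ := by
      rw [eq_top_iff]
      intro x _
      have : (x : X) ∈ F := by rw [h]; exact x.2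
      rw [hFdef] at this
      obtain ⟨y, hy, he⟩ := this
      have : y = x := Subtype.ext he
      rwa [this] at hy
    obtain ⟨M, hM⟩ := (eq_top_or_exists_le_coatom (⊥ : Subgroup D)).resolve_left bot_ne_top
    have h1 : frattini D ≤ M := Order.radical_le_coatom hM.1
    rw [htop] at h1
    exact hM.1.1 (top_le_iff.1 h1)
  have hFC : F ≤ C := hfix F hFle hFA hFne
  have hpowC : ∀ x ∈ D, x ^ p ∈ C := by
    intro x hx
    apply hFC
    rw [hFdef]
    refine ⟨(⟨x, hx⟩ : D) ^ p, Cfsg.Agent.Lib.Transfer.pow_mem_frattini hDp _, rfl⟩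
  have hcommC : ⁅D, D⁆ ≤ C := by
    refine le_trans ?_ hFC
    rw [hFdef]
    exact Cfsg.Agent.Lib.Transfer.commutator_le_frattini_map D hDp
  -- `C` is central in `D`
  have hDCle : ⁅D, C⁆ ≤ C := (Subgroup.commutator_mono le_rfl hCD).trans hcommC
  have hDCbot : ⁅D, C⁆ = ⊥ := by
    have h1 : ⁅⁅D, C⁆, A⁆ = ⊥ := by
      rw [Subgroup.commutator_eq_bot_iff_le_centralizer]
      intro c hc
      exact mem_centralizer_iff.2 (fun a ha => (hCA c (hDCle hc) a ha))
    have h2 : ⁅⁅C, A⁆, D⁆ = ⊥ := by
      have h3 : ⁅C, A⁆ = ⊥ := by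
        rw [Subgroup.commutator_eq_bot_iff_le_centralizer]
        intro c hc
        exact mem_centralizer_iff.2 (fun a ha => (hCA c hc a ha))
      rw [h3, Subgroup.commutator_bot_left]
    have h4 := Subgroup.commutator_commutator_eq_bot_of_rotate h1 h2
    rw [Subgroup.commutator_comm A D, hDA] at h4
    exact h4
  have hCcen : ∀ c ∈ C, ∀ d ∈ D, c * d = d * c := by
    intro c hc d hd
    have h1 := Subgroup.commutator_mem_commutator hd hc
    rw [hDCbot, Subgroup.mem_bot, commutatorElement_eq_one_iff_mul_comm] at h1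
    exact h1.symm
  have hp3 : 2 < p := by
    have := hpp.two_le
    omega
  -- `x ↦ x ^ p` is multiplicative on `D`
  have hmulp : ∀ x ∈ D, ∀ y ∈ D, (x * y) ^ p = x ^ p * y ^ p := by
    intro x hx y hy
    obtain ⟨c, hc⟩ : ∃ c : X, c = ⁅y, x⁆ := ⟨_, rfl⟩
    have hcC : c ∈ C := by
      rw [hc]
      exact hcommC (Subgroup.commutator_mem_commutator hy hx)
    have h1 : y * x = c * x * y := by
      rw [hc]; simp only [commutatorElement_def]; group
    have hcx := hCcen c hcC x hx
    have hcy := hCcen c hcC y hy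
    have h2 := Cfsg.Agent.Lib.Coprime.mul_pow_of_commutator_central x y c h1 hcx hcy p
    have h3 := Cfsg.Agent.Lib.Coprime.conj_pow_of_commutator_central y x c⁻¹ (by
        have e1 : x * y = c⁻¹ * y * x := by
          calc x * y = c⁻¹ * (c * x * y) := by group
            _ = c⁻¹ * (y * x) := by rw [← h1]
            _ = _ := by group
        exact e1) (by
        have := hCcen c⁻¹ (inv_mem hcC) y hy
        exact this) p
    have hyp := hCcen _ (hpowC y hy) x hx
    have h4 : c⁻¹ ^ p = 1 := by
      have e2 : x * y ^ p * x⁻¹ = y ^ p := by rw [← hyp]; group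
      rw [e2] at h3
      have e3 : c⁻¹ ^ p * y ^ p = 1 * y ^ p := by rw [← h3, one_mul]
      exact mul_right_cancel e3
    have h5 : c ^ p = 1 := by
      rw [inv_pow] at h4
      exact inv_eq_one.1 h4
    have h6 : p ∣ p.choose 2 := hpp.dvd_choose_self (by norm_num) hp3
    obtain ⟨t, ht⟩ := h6
    rw [h2, ht, pow_mul, h5, one_pow, mul_one]
  -- exponent `p`
  have hexp : ∀ x ∈ D, x ^ p = 1 := by
    let K : Subgroup X :=
      { carrier := {x | x ∈ D ∧ x ^ p = 1}
        mul_mem' := by
          rintro a b ⟨ha, ha2⟩ ⟨hb, hb2⟩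
          exact ⟨D.mul_mem ha hb, by rw [hmulp a ha b hb, ha2, hb2, one_mul]⟩
        one_mem' := ⟨D.one_mem, one_pow _⟩
        inv_mem' := by
          rintro a ⟨ha, ha2⟩
          exact ⟨D.inv_mem ha, by rw [inv_pow, ha2, inv_one]⟩ }
    have hKD : K ≤ D := fun x hx => hx.1
    have hKA : A ≤ normalizer (K : Set X) := by
      intro a ha
      apply Cfsg.Agent.Lib.PGroups.mem_normalizer_of_conj_le'
      rintro x ⟨hx, hx2⟩
      refine ⟨(mem_normalizer_iff.1 (hAD ha) x).1 hx, ?_⟩
      rw [conj_pow, hx2]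
      group
    by_cases hKeq : K = D
    · intro x hx
      rw [← hKeq] at hx
      exact hx.2
    · exfalso
      have hKC := hfix K hKD hKA hKeq
      have h1 := Cfsg.Agent.Lib.Coprime.Omega1.omega_trivial hp A D (by rw [hAcard]; exact (Nat.coprime_primes hqq hpp).2 hqp) hDp hAD (by
        intro y hy ho a ha
        have hyK : y ∈ K := ⟨hy, by rw [← ho]; exact pow_orderOf_eq_one y⟩
        exact hCA y (hKC hyK) a ha)
      apply hDne
      rw [Subgroup.commutator_eq_bot_iff_le_centralizer]
      intro d hd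
      exact mem_centralizer_iff.2 (fun a ha => (mem_centralizer_iff.1 (h1 ha) d hd).symm)
  -- the rank bound
  have hbound : Nat.card D ≤ p ^ 2 * Nat.card C := by
    by_cases hab : ∀ x ∈ D, ∀ y ∈ D, x * y = y * x
    · have h1 := hrk D hDP hab hexp
      exact h1.trans (Nat.le_mul_of_pos_right _ Nat.card_pos)
    · push Not at hab
      obtain ⟨x, hx, y₀, hy₀, hxy⟩ := hab
      obtain ⟨Z, hZdef⟩ : ∃ Z : Subgroup X, Z = cenOf D := ⟨_, rfl⟩
      have hZD : Z ≤ D := hZdef ▸ inf_le_left
      have hZcen : ∀ z ∈ Z, ∀ d ∈ D, d * z = z * d := by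
        intro z hz d hd
        rw [hZdef] at hz
        exact mem_centralizer_iff.1 hz.2 d hd
      have hZA : A ≤ normalizer (Z : Set X) := by
        rw [hZdef]
        exact fun a ha => cenOf_mem_normalizer (hAD ha)
      have hZne : Z ≠ D := by
        intro h
        apply hxy
        have : x ∈ Z := h ▸ hx
        exact (hZcen x this y₀ hy₀).symm
      have hZC : Z ≤ C := hfix Z hZD hZA hZne
      have hxZ : x ∉ Z := fun h => hxy (hZcen x h y₀ hy₀).symm
      have hZbot : Z ≠ ⊥ := by
        rw [hZdef]; exact cenOf_ne_bot hDp hDbot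
      -- the group `⟨Z, x⟩`
      let S₀ : Set X := (Z : Set X) ∪ {x}
      have hS₀comm : ∀ a ∈ S₀, ∀ b ∈ S₀, a * b = b * a := by
        rintro a (ha | ha) b (hb | hb)
        · exact hZcen b hb a (hZD ha)
        · rw [Set.mem_singleton_iff.1 hb]; exact (hZcen a ha x hx).symm
        · rw [Set.mem_singleton_iff.1 ha]; exact hZcen b hb x hx
        · rw [Set.mem_singleton_iff.1 ha, Set.mem_singleton_iff.1 hb]
      have hS₀D : S₀ ⊆ D := by
        rintro a (ha | ha)
        · exact hZD ha
        · rw [Set.mem_singleton_iff.1 ha]; exact hx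
      have hB₀D : closure S₀ ≤ D := (closure_le _).2 hS₀D
      have hB₀P : closure S₀ ≤ P := hB₀D.trans hDP
      have hB₀comm := Cfsg.Agent.Lib.LocalEven2.comm_of_closure' hS₀comm
      have hB₀exp : ∀ a ∈ closure S₀, a ^ p = 1 := fun a ha => hexp a (hB₀D ha)
      have hZB₀ : Z < closure S₀ := by
        refine lt_of_le_of_ne (fun z hz => subset_closure (Or.inl hz)) ?_
        intro h
        apply hxZ
        rw [h]
        exact subset_closure (Or.inr rfl)
      have hB₀card : p ^ 2 ≤ Nat.card (closure S₀) := by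
        obtain ⟨i, hi⟩ := IsPGroup.iff_card.1 (hDp.to_le hB₀D)
        obtain ⟨j, hj⟩ := IsPGroup.iff_card.1 (hDp.to_le hZD)
        have h1 : Nat.card Z < Nat.card (closure S₀) := Cfsg.Agent.Lib.OddLocal.card_lt_of_lt hZB₀
        have h2 : 1 < Nat.card Z := (Subgroup.one_lt_card_iff_ne_bot Z).2 hZbot
        rw [hi] at h1 ⊢
        rw [hj] at h1 h2
        have h3 : j < i := (Nat.pow_lt_pow_iff_right hpp.one_lt).1 h1
        have h4 : 0 < j := by
          by_contra h5
          have : j = 0 := by omega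
          rw [this, pow_zero] at h2
          omega
        exact Nat.pow_le_pow_right hpp.pos (by omega)
      -- the centralizer of `x` in `D` lies in `⟨Z, x⟩`
      obtain ⟨Y, hYdef⟩ : ∃ Y : Subgroup X, Y = D ⊓ centralizer ({x} : Set X) := ⟨_, rfl⟩
      have hYB : Y ≤ closure S₀ := by
        intro y hy
        rw [hYdef] at hy
        have hyx : y * x = x * y := (mem_centralizer_iff.1 hy.2 x rfl).symm
        let S₁ : Set X := S₀ ∪ {y}
        have hS₁comm : ∀ a ∈ S₁, ∀ b ∈ S₁, a * b = b * a := by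
          rintro a (ha | ha) b (hb | hb)
          · exact hS₀comm a ha b hb
          · rw [Set.mem_singleton_iff.1 hb]
            rcases ha with ha | ha
            · exact (hZcen a ha y hy.1).symm
            · rw [Set.mem_singleton_iff.1 ha]; exact hyx.symm
          · rw [Set.mem_singleton_iff.1 ha]
            rcases hb with hb | hb
            · exact hZcen b hb y hy.1
            · rw [Set.mem_singleton_iff.1 hb]; exact hyx
          · rw [Set.mem_singleton_iff.1 ha, Set.mem_singleton_iff.1 hb]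
        have hS₁D : S₁ ⊆ D := by
          rintro a (ha | ha)
          · exact hS₀D ha
          · rw [Set.mem_singleton_iff.1 ha]; exact hy.1
        have hB₁D : closure S₁ ≤ D := (closure_le _).2 hS₁D
        have h1 := hrk (closure S₁) (hB₁D.trans hDP) (Cfsg.Agent.Lib.LocalEven2.comm_of_closure' hS₁comm)
          (fun a ha => hexp a (hB₁D ha))
        have hle : closure S₀ ≤ closure S₁ := closure_mono Set.subset_union_left
        have heq := Subgroup.eq_of_le_of_card_ge hle (h1.trans hB₀card)
        rw [heq]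
        exact subset_closure (Or.inr rfl)
      have hYcard : Nat.card Y ≤ p ^ 2 :=
        (Subgroup.card_le_of_le hYB).trans (hrk _ hB₀P hB₀comm hB₀exp)
      -- the index of `Y`
      let φ : D →* C :=
        { toFun := fun d => ⟨⁅(d : X), x⁆, hcommC (Subgroup.commutator_mem_commutator d.2 hx)⟩
          map_one' := by
            apply Subtype.ext
            show ⁅((1 : D) : X), x⁆ = 1
            rw [OneMemClass.coe_one, commutatorElement_one_left]
          map_mul' := by
            intro a b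
            apply Subtype.ext
            show ⁅(a : X) * b, x⁆ = ⁅(a : X), x⁆ * ⁅(b : X), x⁆
            have hb := hCcen _ (hcommC (Subgroup.commutator_mem_commutator b.2 hx)) a a.2
            have e1 : ⁅(a : X) * b, x⁆ = (a : X) * ⁅(b : X), x⁆ * (a : X)⁻¹ * ⁅(a : X), x⁆ := by
              simp only [commutatorElement_def]; group
            rw [e1, ← hb, mul_inv_cancel_right]
            exact hCcen _ (hcommC (Subgroup.commutator_mem_commutator b.2 hx)) _
              (hCD (hcommC (Subgroup.commutator_mem_commutator a.2 hx))) }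
      have hkerY : (φ.ker).map D.subtype = Y := by
        rw [hYdef]
        ext d
        constructor
        · rintro ⟨d', hd', rfl⟩
          have h1 : ⁅(d' : X), x⁆ = 1 := congrArg Subtype.val hd'
          rw [commutatorElement_eq_one_iff_mul_comm] at h1
          exact ⟨d'.2, mem_centralizer_iff.2 (by
            intro z hz
            rw [Set.mem_singleton_iff.1 hz]
            exact h1.symm)⟩
        · rintro ⟨h1, h2⟩
          refine ⟨⟨d, h1⟩, ?_, rfl⟩
          apply Subtype.ext
          show ⁅d, x⁆ = 1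
          rw [commutatorElement_eq_one_iff_mul_comm]
          exact (mem_centralizer_iff.1 h2 x rfl).symm
      have hcardD : Nat.card D = Nat.card Y * Nat.card φ.range := by
        have h1 := Subgroup.card_mul_index φ.ker
        rw [Subgroup.index_ker] at h1
        rw [← hkerY, Subgroup.card_map_of_injective D.subtype_injective]
        exact h1.symm
      rw [hcardD]
      exact Nat.mul_le_mul hYcard (Subgroup.card_le_card_group _)
  -- counting fixed points
  have hAq : IsPGroup q A := IsPGroup.of_card (n := 1) (by rw [hAcard, pow_one])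
  letI hact : MulAction A D :=
    { smul := fun a d => ⟨(a : X) * d * (a : X)⁻¹, (mem_normalizer_iff.1 (hAD a.2) d).1 d.2⟩
      one_smul := fun d => by
        apply Subtype.ext
        show ((1 : A) : X) * d * ((1 : A) : X)⁻¹ = d
        simp
      mul_smul := fun a b d => by
        apply Subtype.ext
        show ((a * b : A) : X) * d * ((a * b : A) : X)⁻¹ = (a : X) * ((b : X) * d * (b : X)⁻¹) * (a : X)⁻¹
        push_cast
        group }
  have hmod := hAq.card_modEq_card_fixedPoints D
  have hfixcard : Nat.card (MulAction.fixedPoints A D) = Nat.card C := by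
    apply Nat.card_congr
    refine ⟨fun d => ⟨d.1, ?_⟩, fun c => ⟨⟨c.1, hCD c.2⟩, ?_⟩, fun _ => rfl, fun _ => rfl⟩
    · rw [hCdef]
      refine ⟨d.1.2, mem_centralizer_iff.2 fun a ha => ?_⟩
      have h1 := d.2 ⟨a, ha⟩
      have h2 : a * (d.1 : X) * a⁻¹ = d.1 := congrArg Subtype.val h1
      calc a * (d.1 : X) = (a * (d.1 : X) * a⁻¹) * a := by group
        _ = _ := by rw [h2]
    · intro a
      apply Subtype.ext
      show (a : X) * c * (a : X)⁻¹ = c
      rw [hCA c c.2 a a.2]
      group
  rw [hfixcard] at hmod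
  -- the index of `C`
  have hCind : Nat.card C * (C.subgroupOf D).index = Nat.card D := by
    have h1 := Subgroup.card_mul_index (C.subgroupOf D)
    rwa [Nat.card_congr (Subgroup.subgroupOfEquivOfLe hCD).toEquiv] at h1
  obtain ⟨m, hm⟩ : ∃ m, m = (C.subgroupOf D).index := ⟨_, rfl⟩
  rw [← hm] at hCind
  obtain ⟨k, hk⟩ := IsPGroup.iff_card.1 hDp
  obtain ⟨l, hl⟩ := IsPGroup.iff_card.1 (hDp.to_le hCD)
  have hCpos : 0 < Nat.card C := Nat.card_pos
  have hlk : l ≤ k := by
    have h1 : Nat.card C ≤ Nat.card D := Subgroup.card_le_of_le hCD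
    rw [hk, hl] at h1
    exact (Nat.pow_le_pow_iff_right hpp.one_lt).1 h1
  have hmval : m = p ^ (k - l) := by
    have h1 : p ^ l * m = p ^ l * p ^ (k - l) := by
      rw [← pow_add, Nat.add_sub_cancel' hlk, ← hk, ← hl]
      exact hCind
    exact Nat.eq_of_mul_eq_mul_left (pow_pos hpp.pos l) h1
  have hm1 : m ≠ 1 := by
    intro h1
    rw [h1, mul_one] at hCind
    exact hCne (Subgroup.eq_of_le_of_card_ge hCD hCind.ge)
  have hkl : k - l ≠ 0 := by
    intro h0
    rw [h0, pow_zero] at hmval
    exact hm1 hmval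
  have hkl2 : k - l ≤ 2 := by
    have h1 : Nat.card C * m ≤ p ^ 2 * Nat.card C := by rw [hCind]; exact hbound
    rw [mul_comm] at h1
    have h2 := Nat.le_of_mul_le_mul_right h1 hCpos
    rw [hmval] at h2
    exact (Nat.pow_le_pow_iff_right hpp.one_lt).1 h2
  -- `q ∣ |C| (m - 1)`
  have hdvd : q ∣ Nat.card C * (m - 1) := by
    have h1 : Nat.card C ≤ Nat.card D := Subgroup.card_le_of_le hCD
    have h2 := (Nat.modEq_iff_dvd' h1).1 hmod.symm
    have e1 : Nat.card D - Nat.card C = Nat.card C * (m - 1) := by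
      rw [← hCind, Nat.mul_sub, mul_one]
    rwa [e1] at h2
  have hqC : Nat.Coprime q (Nat.card C) := by
    rw [hl]
    exact ((Nat.coprime_primes hqq hpp).2 hqp).pow_right l
  have hdvd2 : q ∣ m - 1 := hqC.dvd_of_dvd_mul_left hdvd
  have hcases : k - l = 1 ∨ k - l = 2 := by omega
  rcases hcases with h | h
  · rw [hmval, h, pow_one] at hdvd2
    refine hdvd2.trans ?_
    have e1 : p ^ 2 - 1 = (p - 1) * (p + 1) := by
      have := hpp.pos
      obtain ⟨r, rfl⟩ : ∃ r, p = r + 1 := ⟨p - 1, by omega⟩
      simp only [Nat.add_sub_cancel]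
      have : (r + 1) ^ 2 = r * (r + 1 + 1) + 1 := by ring
      omega
    rw [e1]
    exact dvd_mul_right _ _
  · rw [hmval, h] at hdvd2
    exact hdvd2

end

end Cfsg.Agent.Lib.Basic
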