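/-
Subnormal subgroups `E₁, E₂` of a group acting faithfully on an elementary abelian `p`-group `V`
with `[V, E₁, E₂] = 1` satisfy `[E₁, E₂] ≤ O_p(H)`.
-/
import Cfsg.Agent.Lib.Coprime.Wielandt
import Cfsg.Agent.Lib.Components.Basic
import Cfsg.Agent.Lib.PGroups.Parts
import Cfsg.Agent.Lib.LocalEven2.ZJ

set_option autoImplicit false

namespace Cfsg.Agent.Lib.Basic

open Subgroup Cfsg Cfsg.Agent.Lib.Coprime.Wielandt
open scoped commutatorElement

variable {G : Type*} [Group G] [Finite G]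

/-- The elements normalizing `V` and acting trivially on `V / D`. -/
def stabKer (V D : Subgroup G) (hDV : D ≤ V) : Subgroup G where
  carrier := {x | x ∈ normalizer (V : Set G) ∧ ∀ v ∈ V, ⁅v, x⁆ ∈ D}
  one_mem' := ⟨one_mem _, fun v _ => by
    have : ⁅v, (1 : G)⁆ = 1 := by simp [commutatorElement_def]
    rw [this]; exact one_mem _⟩
  mul_mem' := by
    rintro x y ⟨hx, hx2⟩ ⟨hy, hy2⟩
    refine ⟨mul_mem hx hy, fun v hv => ?_⟩
    have hxD : x * ⁅v, y⁆ * x⁻¹ ∈ D := by
      have h1 := hx2 _ (hDV (hy2 v hv))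
      have e1 : x * ⁅v, y⁆ * x⁻¹ = ⁅⁅v, y⁆, x⁆⁻¹ * ⁅v, y⁆ := by
        simp only [commutatorElement_def]; group
      rw [e1]
      exact mul_mem (inv_mem h1) (hy2 v hv)
    have e2 : ⁅v, x * y⁆ = ⁅v, x⁆ * (x * ⁅v, y⁆ * x⁻¹) := by
      simp only [commutatorElement_def]; group
    rw [e2]
    exact mul_mem (hx2 v hv) hxD
  inv_mem' := by
    rintro x ⟨hx, hx2⟩
    refine ⟨inv_mem hx, fun v hv => ?_⟩
    have hxN : x ∈ normalizer (D : Set G) := by
      apply Cfsg.Agent.Lib.PGroups.mem_normalizer_of_conj_le'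
      intro d hd
      have h1 := hx2 _ (hDV hd)
      have e1 : x * d * x⁻¹ = ⁅d, x⁆⁻¹ * d := by
        simp only [commutatorElement_def]; group
      rw [e1]
      exact mul_mem (inv_mem h1) hd
    have e2 : ⁅v, x⁻¹⁆ = x⁻¹ * ⁅v, x⁆⁻¹ * x := by
      simp only [commutatorElement_def]; group
    rw [e2]
    have h3 := (mem_normalizer_iff.1 (inv_mem hxN) _).1 (inv_mem (hx2 v hv))
    simpa using h3

theorem exists_snIn_pGroup {p : ℕ} [Fact p.Prime] (V H : Subgroup G)
    (hVp : ∀ v ∈ V, v ^ p = 1) (hHV : H ≤ normalizer (V : Set G))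
    (hf : H ⊓ centralizer (V : Set G) = ⊥) (E₁ E₂ : Subgroup G) (h₁ : SnIn H E₁) (h₂ : SnIn H E₂)
    (hc : E₂ ≤ centralizer ((⁅V, E₁⁆ : Subgroup G) : Set G)) :
    ∃ X : Subgroup G, SnIn H X ∧ IsPGroup p X ∧ ⁅E₁, E₂⁆ ≤ X := by
  classical
  let Fam : Set (Subgroup G × Subgroup G) := {q | SnIn H q.1 ∧ SnIn H q.2 ∧ E₁ ≤ q.1 ∧ E₂ ≤ q.2 ∧
    q.2 ≤ centralizer ((⁅V, q.1⁆ : Subgroup G) : Set G)}
  obtain ⟨⟨A, B⟩, ⟨hA, hB, hEA, hEB, hAB⟩, hmax⟩ := Set.exists_max_image Fam
    (fun q => Nat.card q.1 + Nat.card q.2) (Set.toFinite _) ⟨(E₁, E₂), h₁, h₂, le_rfl, le_rfl, hc⟩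
  simp only at hA hB hEA hEB hAB hmax
  have hAH : A ≤ H := hA.le
  have hBH : B ≤ H := hB.le
  have hFV : ⁅V, A⁆ ≤ V := by
    rw [Subgroup.commutator_le]
    intro v hv a ha
    have h1 := (mem_normalizer_iff.1 (hHV (hAH ha)) _).1 (inv_mem hv)
    have e1 : ⁅v, a⁆ = v * (a * v⁻¹ * a⁻¹) := by
      simp only [commutatorElement_def]; group
    rw [e1]
    exact mul_mem hv h1
  -- `B` normalizes `A`
  have hBA : B ≤ normalizer (A : Set G) := by
    let A' : Subgroup G := ⨆ b : B, Cj (b : G) A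
    have hA' : SnIn H A' := SnIn.iSup _ (fun b => hA.conj_of_mem (hBH b.2))
    have hAA' : A ≤ A' := by
      have h1 : Cj ((1 : B) : G) A ≤ A' := le_iSup (fun b : B => Cj (b : G) A) 1
      have e1 : Cj ((1 : B) : G) A = A := cj_one A
      rwa [e1] at h1
    let D : Subgroup G := V ⊓ centralizer (B : Set G)
    have hFD : ⁅V, A⁆ ≤ D := by
      refine le_inf hFV ?_
      intro f hf'
      refine mem_centralizer_iff.mpr fun b hb => ?_
      exact (mem_centralizer_iff.1 (hAB hb) f hf').symm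
    have hA'K : A' ≤ stabKer V D inf_le_left := by
      apply iSup_le
      rintro b _ ⟨a, ha, rfl⟩
      refine ⟨?_, fun v hv => ?_⟩
      · show (b : G) * a * (b : G)⁻¹ ∈ normalizer (V : Set G)
        have hb' := hHV (hBH b.2)
        exact mul_mem (mul_mem hb' (hHV (hAH ha))) (inv_mem hb')
      · have hv' : (b : G)⁻¹ * v * (b : G)⁻¹⁻¹ ∈ V :=
          (mem_normalizer_iff.1 (inv_mem (hHV (hBH b.2))) _).1 hv
        have h1 := hFD (Subgroup.commutator_mem_commutator hv' ha)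
        have h2 := mem_centralizer_iff.1 h1.2 (b : G) b.2
        have e0 : (MulAut.conj (b : G)).toMonoidHom a = (b : G) * a * (b : G)⁻¹ := rfl
        have e1 : ⁅v, (MulAut.conj (b : G)).toMonoidHom a⁆ =
            (b : G) * ⁅(b : G)⁻¹ * v * (b : G)⁻¹⁻¹, a⁆ * (b : G)⁻¹ := by
          rw [e0]; simp only [commutatorElement_def]; group
        rw [e1, h2]
        simpa using h1
    have hF'D : ⁅V, A'⁆ ≤ D := by
      rw [Subgroup.commutator_le]
      intro v hv a ha
      exact (hA'K ha).2 v hv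
    have hmem : (A', B) ∈ Fam := by
      refine ⟨hA', hB, hEA.trans hAA', hEB, ?_⟩
      intro b hb
      refine mem_centralizer_iff.mpr fun f hf' => ?_
      exact (mem_centralizer_iff.1 (hF'D hf').2 b hb).symm
    have h1 := hmax _ hmem
    simp only at h1
    have h2 : A' = A := (Subgroup.eq_of_le_of_card_ge hAA' (by omega)).symm
    intro b hb
    apply Cfsg.Agent.Lib.PGroups.mem_normalizer_of_conj_le'
    intro a ha
    rw [← h2]
    have h3 : Cj b A ≤ A' := le_iSup (fun b : B => Cj (b : G) A) ⟨b, hb⟩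
    exact h3 ⟨a, ha, rfl⟩
  -- `A` normalizes `B`
  have hAB' : A ≤ normalizer (B : Set G) := by
    let B' : Subgroup G := ⨆ a : A, Cj (a : G) B
    have hB' : SnIn H B' := SnIn.iSup _ (fun a => hB.conj_of_mem (hAH a.2))
    have hBB' : B ≤ B' := by
      have h1 : Cj ((1 : A) : G) B ≤ B' := le_iSup (fun a : A => Cj (a : G) B) 1
      have e1 : Cj ((1 : A) : G) B = B := cj_one B
      rwa [e1] at h1
    have hB'C : B' ≤ centralizer ((⁅V, A⁆ : Subgroup G) : Set G) := by
      apply iSup_le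
      rintro a _ ⟨b, hb, rfl⟩
      refine mem_centralizer_iff.mpr fun f hf' => ?_
      have h1 : (a : G)⁻¹ * f * (a : G)⁻¹⁻¹ ∈ ⁅V, A⁆ := by
        refine Cfsg.Agent.Lib.LocalEven2.conj_mem_commutator ?_ ?_ f hf'
        · intro v hv
          exact (mem_normalizer_iff.1 (inv_mem (hHV (hAH a.2))) _).1 hv
        · intro z hz
          exact mul_mem (mul_mem (inv_mem a.2) hz) (inv_mem (inv_mem a.2))
      have h2 := mem_centralizer_iff.1 (hAB hb) _ h1
      show f * ((a : G) * b * (a : G)⁻¹) = (a : G) * b * (a : G)⁻¹ * f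
      calc f * ((a : G) * b * (a : G)⁻¹)
          = (a : G) * (((a : G)⁻¹ * f * (a : G)⁻¹⁻¹) * b) * (a : G)⁻¹ := by group
        _ = (a : G) * (b * ((a : G)⁻¹ * f * (a : G)⁻¹⁻¹)) * (a : G)⁻¹ := by rw [h2]
        _ = _ := by group
    have hmem : (A, B') ∈ Fam := ⟨hA, hB', hEA, hEB.trans hBB', hB'C⟩
    have h1 := hmax _ hmem
    simp only at h1
    have h2 : B' = B := (Subgroup.eq_of_le_of_card_ge hBB' (by omega)).symm
    intro a ha
    apply Cfsg.Agent.Lib.PGroups.mem_normalizer_of_conj_le'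
    intro b hb
    rw [← h2]
    have h3 : Cj a B ≤ B' := le_iSup (fun a : A => Cj (a : G) B) ⟨a, ha⟩
    exact h3 ⟨b, hb, rfl⟩
  refine ⟨⁅A, B⁆, ?_, ?_, Subgroup.commutator_mono hEA hEB⟩
  · -- subnormality
    have hXle : ⁅A, B⁆ ≤ A ⊔ B := by
      rw [Subgroup.commutator_le]
      intro a ha b hb
      have e1 : ⁅a, b⁆ = a * (b * a⁻¹ * b⁻¹) := by
        simp only [commutatorElement_def]; group
      rw [e1]
      exact mul_mem (mem_sup_left ha) (mem_sup_left ((mem_normalizer_iff.1 (hBA hb) _).1 (inv_mem ha)))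
    refine (hA.sup hB).trans (snIn_of_normal hXle ?_)
    apply sup_le
    · intro a ha
      apply Cfsg.Agent.Lib.PGroups.mem_normalizer_of_conj_le'
      refine Cfsg.Agent.Lib.LocalEven2.conj_mem_commutator ?_ ?_
      · intro y hy
        exact mul_mem (mul_mem ha hy) (inv_mem ha)
      · intro z hz
        exact (mem_normalizer_iff.1 (hAB' ha) z).1 hz
    · intro b hb
      apply Cfsg.Agent.Lib.PGroups.mem_normalizer_of_conj_le'
      refine Cfsg.Agent.Lib.LocalEven2.conj_mem_commutator ?_ ?_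
      · intro y hy
        exact (mem_normalizer_iff.1 (hBA hb) y).1 hy
      · intro z hz
        exact mul_mem (mul_mem hb hz) (inv_mem hb)
  · -- exponent `p`
    have hXA : ⁅A, B⁆ ≤ A := by
      rw [Subgroup.commutator_le]
      intro a ha b hb
      have e1 : ⁅a, b⁆ = a * (b * a⁻¹ * b⁻¹) := by
        simp only [commutatorElement_def]; group
      rw [e1]
      exact mul_mem ha ((mem_normalizer_iff.1 (hBA hb) _).1 (inv_mem ha))
    have hXB : ⁅A, B⁆ ≤ B := by
      rw [Subgroup.commutator_le]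
      intro a ha b hb
      have e1 : ⁅a, b⁆ = (a * b * a⁻¹) * b⁻¹ := by
        simp only [commutatorElement_def]
      rw [e1]
      exact mul_mem ((mem_normalizer_iff.1 (hAB' ha) _).1 hb) (inv_mem hb)
    rintro ⟨x, hx⟩
    have hxA := hXA hx
    have hxB := hXB hx
    refine ⟨1, Subtype.ext ?_⟩
    show x ^ p ^ 1 = 1
    rw [pow_one]
    have hfix : x ^ p ∈ H ⊓ centralizer (V : Set G) := by
      refine ⟨pow_mem (hAH hxA) p, mem_centralizer_iff.mpr fun v hv => ?_⟩
      obtain ⟨e, he⟩ : ∃ e : G, e = ⁅v, x⁆⁻¹ := ⟨_, rfl⟩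
      have heF : e ∈ ⁅V, A⁆ := by
        rw [he]
        exact inv_mem (Subgroup.commutator_mem_commutator hv hxA)
      have hex : e * x = x * e := (mem_centralizer_iff.1 (hAB hxB) e heF).symm ▸ rfl
      have hstep : x * v * x⁻¹ = e * v := by
        rw [he]; simp only [commutatorElement_def]; group
      have hk : ∀ k : ℕ, x ^ k * v * (x ^ k)⁻¹ = e ^ k * v := by
        intro k
        induction k with
        | zero => simp
        | succ k ih =>
          have hc' : Commute x (e ^ k) := (Commute.pow_right (show Commute x e from hex.symm) k)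
          calc x ^ (k + 1) * v * (x ^ (k + 1))⁻¹
              = x * (x ^ k * v * (x ^ k)⁻¹) * x⁻¹ := by rw [pow_succ']; group
            _ = x * (e ^ k * v) * x⁻¹ := by rw [ih]
            _ = (x * e ^ k) * v * x⁻¹ := by group
            _ = (e ^ k * x) * v * x⁻¹ := by rw [hc'.eq]
            _ = e ^ k * (x * v * x⁻¹) := by group
            _ = e ^ k * (e * v) := by rw [hstep]
            _ = e ^ (k + 1) * v := by rw [pow_succ]; group
      have h1 := hk p
      rw [hVp e (hFV heF), one_mul] at h1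
      calc v * x ^ p = (x ^ p * v * (x ^ p)⁻¹) * x ^ p := by rw [h1]
        _ = x ^ p * v := by group
    rw [hf] at hfix
    exact Subgroup.mem_bot.1 hfix

end Cfsg.Agent.Lib.Basic
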