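import Cfsg.Agent.Lib.Basic.FrobNorm
import Cfsg.Agent.Lib.Char.Burnside
import Cfsg.Agent.S0040
import Mathlib.GroupTheory.SpecificGroups.ZGroup

/-!
# S0069: Frobenius complements have nontrivial centre.
-/

set_option autoImplicit false

namespace Cfsg.Agent.Lib.Basic

open Subgroup Cfsg

open scoped Pointwise commutatorElement IsMulCommutative

variable {G : Type*} [Group G]

/-- In a finite cyclic group, `u ^ r = 1` and `v` of order `r` imply `u ∈ ⟨v⟩`. -/
theorem mem_zpowers_of_pow_eq_one_of_isCyclic {C : Type*} [Group C] [Finite C] [IsCyclic C]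
    {v u : C} {r : ℕ} (hv : orderOf v = r) (hr : 0 < r) (hu : u ^ r = 1) : u ∈ zpowers v := by
  classical
  haveI := Fintype.ofFinite C
  have h1 : (Finset.univ.filter (fun a : C => a ^ r = 1)).card ≤ r :=
    IsCyclic.card_pow_eq_one_le hr
  set Z : Finset C := (Set.toFinite ((zpowers v : Subgroup C) : Set C)).toFinset with hZ
  have hZcard : Z.card = r := by
    rw [hZ, ← Set.ncard_eq_toFinset_card, ← hv, ← Nat.card_zpowers]
    exact (Nat.card_coe_set_eq _).symm
  have hsub : Z ⊆ Finset.univ.filter (fun a : C => a ^ r = 1) := by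
    intro a ha
    rw [hZ, Set.Finite.mem_toFinset] at ha
    obtain ⟨k, rfl⟩ := ha
    simp only [Finset.mem_filter, Finset.mem_univ, true_and]
    rw [← zpow_natCast, ← zpow_mul, mul_comm, zpow_mul, zpow_natCast, ← hv, pow_orderOf_eq_one,
      one_zpow]
  have heq := Finset.eq_of_subset_of_card_le hsub (by rw [hZcard]; exact h1)
  have hu' : u ∈ Finset.univ.filter (fun a : C => a ^ r = 1) := by
    simp only [Finset.mem_filter, Finset.mem_univ, true_and]
    exact hu
  rw [← heq, hZ, Set.Finite.mem_toFinset] at hu'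
  exact hu'

/-- A finite `Z`-group all of whose subgroups of order a product of two primes are cyclic has
nontrivial centre. -/
theorem center_ne_bot_of_isZGroup {H : Type*} [Group H] [Finite H] [IsZGroup H] [Nontrivial H]
    (hpq : ∀ L : Subgroup H, ∀ r q : ℕ, r.Prime → q.Prime → Nat.card L = r * q → IsCyclic L) :
    Subgroup.center H ≠ ⊥ := by
  set A := _root_.commutator H with hA
  haveI hAc : IsCyclic A := IsZGroup.isCyclic_commutator H
  have hcop : (Nat.card A).Coprime A.index := IsZGroup.coprime_commutator_index H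
  haveI hAn : A.Normal := inferInstance
  obtain ⟨B, hB⟩ := Subgroup.exists_right_complement'_of_coprime hcop
  have hBb : B ≠ ⊥ := by
    intro hb
    rw [hb] at hB
    have ht : A = ⊤ := Subgroup.isComplement'_bot_right.mp hB
    exact (IsZGroup.commutator_lt (G := H)).ne ht
  have hBnt : Nontrivial B := (Subgroup.nontrivial_iff_ne_bot _).mpr hBb
  obtain ⟨q, hq, hqd⟩ := Nat.exists_prime_and_dvd (Finite.one_lt_card (α := B)).ne'
  haveI hfq : Fact q.Prime := ⟨hq⟩
  obtain ⟨c', hc'⟩ := exists_prime_orderOf_dvd_card' (G := B) q hqd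
  obtain ⟨c, hcB⟩ := c'
  have hco : orderOf c = q := by
    rw [← hc', Subgroup.orderOf_mk]
  have hc1 : c ≠ 1 := by
    rintro rfl
    rw [orderOf_one] at hco
    exact hq.one_lt.ne hco
  have hBidx : A.index = Nat.card B := hB.symm.index_eq_card
  have hqA : q.Coprime (Nat.card A) := by
    have h1 : q ∣ A.index := by rw [hBidx]; exact hqd
    exact Nat.Coprime.coprime_dvd_left h1 hcop.symm
  -- `B` is commutative
  have hBc : ∀ x ∈ B, ∀ y ∈ B, x * y = y * x := by
    intro x hx y hy
    have h1 : x * y * x⁻¹ * y⁻¹ ∈ A := by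
      have : x * y * x⁻¹ * y⁻¹ = ⁅x, y⁆ := rfl
      rw [this]
      exact Subgroup.commutator_mem_commutator trivial trivial
    have h2 : x * y * x⁻¹ * y⁻¹ ∈ B :=
      B.mul_mem (B.mul_mem (B.mul_mem hx hy) (B.inv_mem hx)) (B.inv_mem hy)
    have h3 : x * y * x⁻¹ * y⁻¹ ∈ A ⊓ B := ⟨h1, h2⟩
    rw [hB.disjoint.eq_bot, Subgroup.mem_bot] at h3
    have h4 : x * y = y * x := by
      rw [mul_inv_eq_one, mul_inv_eq_iff_eq_mul] at h3
      exact h3
    exact h4
  -- `c` centralizes the prime order elements of `A`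
  haveI hAcomm : IsMulCommutative A := by
    letI := IsCyclic.commGroup (α := A)
    exact inferInstance
  have hcent : zpowers c ≤ centralizer (A : Set H) := by
    apply le_centralizer_of_fix_prime_order
    · rw [Subgroup.normalizer_eq_top_iff.mpr hAn]
      exact le_top
    · rw [Nat.card_zpowers, hco]
      exact hqA
    · intro v hv hvp a ha
      obtain ⟨k, rfl⟩ := ha
      -- `c` normalizes `⟨v⟩`
      set r := orderOf v with hr
      have hv' : orderOf (⟨v, hv⟩ : A) = r := by rw [hr, Subgroup.orderOf_mk]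
      -- conjugation preserves the order-`r` elements of `A`
      have hconjmem : ∀ g : H, ∀ x ∈ zpowers v, g * x * g⁻¹ ∈ zpowers v := by
        intro g x hx
        have hxA : x ∈ A := (Subgroup.zpowers_le.mpr hv) hx
        have h1 : g * x * g⁻¹ ∈ A := hAn.conj_mem x hxA g
        have h2 : (g * x * g⁻¹) ^ r = 1 := by
          rw [conj_pow]
          obtain ⟨j, rfl⟩ := hx
          simp only
          rw [← zpow_natCast, ← zpow_mul, mul_comm, zpow_mul, zpow_natCast, hr, pow_orderOf_eq_one,
            one_zpow, mul_one, mul_inv_cancel]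
        have h3 := mem_zpowers_of_pow_eq_one_of_isCyclic (C := A) (v := ⟨v, hv⟩)
          (u := ⟨g * x * g⁻¹, h1⟩) hv' hvp.pos (Subtype.ext (by simpa using h2))
        obtain ⟨j, hj⟩ := h3
        refine ⟨j, ?_⟩
        have := congrArg Subtype.val hj
        simpa using this
      haveI hRn : (zpowers v).Normal := ⟨fun x hx g => hconjmem g x hx⟩
      have hrcard : Nat.card (zpowers v) = r := Nat.card_zpowers v
      have hrq : r.Coprime q := by
        have h1 : r ∣ Nat.card A := by
          rw [← hv']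
          exact orderOf_dvd_natCard _
        exact (Nat.Coprime.coprime_dvd_right h1 hqA).symm
      have hdisj : zpowers v ⊓ zpowers c = ⊥ := by
        have : Disjoint (zpowers v) (zpowers c) :=
          Subgroup.disjoint_of_coprime_natCard (by rw [hrcard, Nat.card_zpowers, hco]; exact hrq)
        exact this.eq_bot
      have hLcard : Nat.card (zpowers c ⊔ zpowers v : Subgroup H) = r * q := by
        rw [card_sup_eq_of_normal, hrcard]
        congr 1
        rw [← Subgroup.inf_relIndex_left, inf_comm, hdisj, Subgroup.relIndex_bot_left, Nat.card_zpowers,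
          hco]
      haveI hLc := hpq _ r q hvp hq hLcard
      have hcm := (IsCyclic.commGroup (α := (zpowers c ⊔ zpowers v : Subgroup H))).mul_comm
        ⟨c, Subgroup.mem_sup_left (Subgroup.mem_zpowers c)⟩
        ⟨v, Subgroup.mem_sup_right (Subgroup.mem_zpowers v)⟩
      have hcm' : Commute c v := congrArg Subtype.val hcm
      exact (hcm'.zpow_left k).eq
  refine Subgroup.ne_bot_iff_exists_ne_one.mpr ⟨⟨c, ?_⟩, fun h => hc1 (congrArg Subtype.val h)⟩
  rw [Subgroup.mem_center_iff]
  intro x
  have hx : x ∈ A ⊔ B := by rw [hB.sup_eq_top]; trivial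
  rw [Subgroup.mem_sup_of_normal_left] at hx
  obtain ⟨a, ha, b, hb, rfl⟩ := hx
  have h1 : Commute c a := by
    have := Subgroup.mem_centralizer_iff.mp (hcent (Subgroup.mem_zpowers c)) a ha
    exact this.symm
  have h2 : Commute c b := hBc c hcB b hb
  exact ((h1.mul_right h2).eq).symm

/-- A subgroup with trivial conjugate intersections has order coprime to its index. -/
theorem IsConjDisjoint.coprime_card_index [Finite G] {H : Subgroup G} (hH : IsConjDisjoint H) :
    (Nat.card H).Coprime H.index := by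
  refine coprime_card_index_of_centralizer_le H ?_
  intro x hx hx1 y hy
  by_contra hyH
  have h3 := hH y hyH
  have h4 : x ∈ H ⊓ MulAut.conj y • H := by
    refine ⟨hx, ?_⟩
    show x ∈ MulAut.conj y • H
    rw [mem_conj_smul]
    have h5 := Subgroup.mem_centralizer_iff.mp hy x rfl
    have : y⁻¹ * x * y = x := by
      rw [mul_assoc, h5]
      group
    rw [this]
    exact hx
  rw [h3, Subgroup.mem_bot] at h4
  exact hx1 h4

/-- **S0069.** -/
theorem center_ne_bot_of_fpf [Finite G] (K H : Subgroup G) [hKn : K.Normal]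
    (hc : IsComplement' K H) (hK : K ≠ ⊥) (hH : H ≠ ⊥)
    (hfpf : ∀ h ∈ H, h ≠ 1 → K ⊓ centralizer {h} = ⊥) : Subgroup.center H ≠ ⊥ := by
  by_cases heven : 2 ∣ Nat.card H
  · obtain ⟨⟨s, hs, hso, huniq, -⟩, -⟩ := unique_involution_of_fpf hK hfpf heven
    refine Subgroup.ne_bot_iff_exists_ne_one.mpr ⟨⟨⟨s, hs⟩, ?_⟩, fun h => ?_⟩
    · rw [Subgroup.mem_center_iff]
      rintro ⟨h, hh⟩
      apply Subtype.ext
      have h1 : orderOf (h * s * h⁻¹) = 2 := by
        rw [← hso]
        exact Cfsg.Agent.Lib.PGroups.orderOf_conj_eq h s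
      have h2 := huniq _ (H.mul_mem (H.mul_mem hh hs) (H.inv_mem hh)) h1
      rw [mul_inv_eq_iff_eq_mul] at h2
      exact h2
    · have h1 : s = 1 := congrArg (fun z : (Subgroup.center H) => ((z : H) : G)) h
      rw [h1, orderOf_one] at hso
      omega
  -- the odd case
  have hHnt : Nontrivial H := (Subgroup.nontrivial_iff_ne_bot _).mpr hH
  have hcop : (Nat.card H).Coprime (Nat.card K) := by
    have h1 : H.index = Nat.card K := hc.index_eq_card
    rw [← h1]
    exact IsConjDisjoint.coprime_card_index (isConjDisjoint_of_fpf hc hfpf)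
  haveI hZ : IsZGroup H := by
    refine ⟨fun p hp P => ?_⟩
    haveI : Fact p.Prime := ⟨hp⟩
    rcases Cfsg.Agent.S0040.result K H hc hK hfpf p P with h | ⟨n, ⟨e⟩⟩
    · exact h
    · exfalso
      apply heven
      haveI : NeZero (2 ^ n) := ⟨by positivity⟩
      have h1 : Nat.card (P : Subgroup H) = 4 * 2 ^ n := by
        rw [Nat.card_congr e.toEquiv, Nat.card_eq_fintype_card, QuaternionGroup.card]
      have h2 : Nat.card (P : Subgroup H) ∣ Nat.card H := Subgroup.card_subgroup_dvd_card _
      rw [h1] at h2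
      have h3 : 2 ∣ 4 * 2 ^ n := Dvd.dvd.mul_right (by norm_num) _
      exact h3.trans h2
  refine center_ne_bot_of_isZGroup ?_
  intro L r q hr hq hcard
  set L' := L.map H.subtype with hL'
  have hL'card : Nat.card L' = r * q := by
    rw [hL', ← hcard]
    exact Nat.card_congr (Subgroup.equivMapOfInjective L H.subtype H.subtype_injective).toEquiv.symm
  have hL'H : L' ≤ H := Subgroup.map_subtype_le _
  have hsolv : Group.IsSolvable L' :=
    Cfsg.Agent.Lib.Char.isSolvable_of_card_eq_aux hr hq _ L' rfl ⟨1, 1, by rw [hL'card, pow_one, pow_one]⟩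
  have hcop' : (Nat.card L').Coprime (Nat.card K) :=
    Nat.Coprime.coprime_dvd_left (Subgroup.card_dvd_of_le hL'H) hcop
  obtain ⟨V, hVK, hVb, hVc, hVA, -⟩ := exists_abelian_invariant_of_coprime (A := L') (K := K)
    (by rw [Subgroup.normalizer_eq_top_iff.mpr hKn]; exact le_top) hcop' (Or.inl hsolv) hK
  haveI := hVc
  have hL'c : IsCyclic L' := isCyclic_of_fpf L' V hVb hVA (by
    intro a ha ha1
    rw [eq_bot_iff, ← hfpf a (hL'H ha) ha1]
    exact inf_le_inf_right _ hVK) (Or.inr ⟨r, q, hr, hq, hL'card⟩)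
  let e := Subgroup.equivMapOfInjective L H.subtype H.subtype_injective
  exact isCyclic_of_surjective e.symm e.symm.surjective

end Cfsg.Agent.Lib.Basic
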